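import Cfsg.Agent.H590.F4.P4
import Cfsg.Agent.H181.TC.Act

/-!
# `²E₆(2)`: the action of the Levi subgroup of `P₄ = 2^(8+16):Ω₈⁻(2)` on the layer `2^8` (helper588, row F4 of S2491)

`top` : the eight roots of `E₆` with fold coordinate 2 at node 3; `P8 c` : the product of the root elements; `Ph v` : the coordinates of
the vector `v` of the orthogonal space `V` of minus type; `p v = P8 (Ph v)` : `V → ²E₆(2)`.
-/

set_option autoImplicit false

namespace Cfsg.Agent.H588.F4

open Cfsg Cfsg.Lie Subgroup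
open Cfsg.Agent.ChevalleyStructure Cfsg.Agent.ChevalleyStructure.TwE6Basic
open Cfsg.Agent.ChevalleyStructure.Elts (xG wordG)

universe u

/-! ### The tables -/

/-- the roots of level two -/
def top : Fin 8 → ℕ := ![60, 63, 65, 66, 68, 69, 70, 71]

/-- the roots `r` of level zero; `r + top j = top i`, `r + top (7 - i) = top (7 - j)` -/
def tab : List (ℕ × Fin 8 × Fin 8) := [(18, 6, 0), (20, 5, 0), (21, 4, 0), (23, 3, 0), (24, 2, 0), (25, 1, 0), (27, 5, 1),
  (28, 4, 1), (29, 4, 2), (31, 3, 1), (32, 2, 1), (34, 3, 2), (37, 2, 3), (39, 1, 2), (40, 1, 3), (42, 2, 4), (43, 1, 4),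
  (44, 1, 5), (46, 0, 1), (47, 0, 2), (48, 0, 3), (50, 0, 4), (51, 0, 5), (53, 0, 6)]

/-- the check of the commutator relations -/
def chk (e : ℕ × Fin 8 × Fin 8) (k : Fin 8) : Bool :=
  match chevE6.commTerms e.1 (top k) with
  | [] => k != e.2.1 && k != Fin.rev e.2.2
  | [(w, C, a, b)] => (C == 1 || C == -1) && a == 1 && b == 1 &&
      ((k == e.2.1 && w == top e.2.2) || (k == Fin.rev e.2.2 && w == top (Fin.rev e.2.1)))
  | _ => false

theorem chk_all : ∀ e ∈ tab, ∀ k, chk e k = true := by decide +kernel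

theorem tab_ne : ∀ e ∈ tab, e.1 < 72 ∧ e.2.1 ≠ Fin.rev e.2.2 ∧ e.2.2 ≠ e.2.1 ∧
    ∀ k, top k ≠ e.1 ∧ top k ≠ chevE6.neg e.1 := by decide +kernel

theorem top_lt : ∀ k, top k < 72 := by decide

theorem top_inj : ∀ k l, top k = top l → k = l := by decide

theorem top_comm : ∀ k l, k ≠ l → top l ≠ top k ∧ top l ≠ chevE6.neg (top k) ∧ chevE6.commTerms (top k) (top l) = [] := by
  decide +kernel

theorem lev_zero : ∀ r < 72, Nodes.RGDFold.V chevE6 Nodes.RGDTwE6.J r 3 = 0 → r ∈ tab.map Prod.fst := by decide +kernel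

theorem lev_two : ∀ r < 72, Nodes.RGDFold.V chevE6 Nodes.RGDTwE6.J r 3 = 2 → ∃ k, top k = r := by decide +kernel

theorem rho_top : ∀ k : Fin 8, ∃ h : top k < 72, ((rho ⟨top k, h⟩).val = top (![0, 1, 2, 4, 3, 5, 6, 7] k)) := by
  decide +kernel

/-! ### The elements of the layer -/

section

variable {F : Type u} [Field F]

/-- products of commuting pairs -/
theorem prod_mul {ι M : Type*} [Monoid M] (l : List ι) (a b : ι → M) (h : ∀ i ∈ l, ∀ j ∈ l, Commute (b i) (a j)) :
    (l.map fun i => a i * b i).prod = (l.map a).prod * (l.map b).prod := by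
  induction l with
  | nil => simp
  | cons i l ih =>
    rw [List.map_cons, List.prod_cons, List.map_cons, List.prod_cons, List.map_cons, List.prod_cons,
      ih fun i hi j hj => h i (List.mem_cons_of_mem _ hi) j (List.mem_cons_of_mem _ hj)]
    have h1 : Commute (b i) (l.map a).prod := by
      apply Commute.list_prod_right
      intro x hx
      obtain ⟨j, hj, rfl⟩ := List.mem_map.1 hx
      exact h i List.mem_cons_self j (List.mem_cons_of_mem _ hj)
    calc a i * b i * ((l.map a).prod * (l.map b).prod) = a i * (b i * (l.map a).prod) * (l.map b).prod := by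
          simp only [mul_assoc]
      _ = _ := by rw [h1.eq]; simp only [mul_assoc]

theorem x_top_comm (k l : Fin 8) (t w : F) : Commute (x (top k) t) (x (top l) w) := by
  by_cases h : k = l
  · subst h
    show _ * _ = _ * _
    rw [x_add, x_add, add_comm]
  · obtain ⟨h1, h2, h3⟩ := top_comm k l h
    exact (comm_of_commTerms (top_lt k) (top_lt l) h1 h2 h3 t w).symm

/-- the elements of the layer -/
noncomputable def P8 : Multiplicative (Fin 8 → F) →* GL chevE6.Idx F where
  toFun c := ((List.finRange 8).map fun k => x (top k) (c.toAdd k)).prod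
  map_one' := by
    show ((List.finRange 8).map fun k => x (top k) (0 : F)).prod = 1
    simp [x_zero]
  map_mul' c d := by
    rw [← prod_mul _ _ _ fun i _ j _ => x_top_comm i j _ _]
    congr 1
    apply List.map_congr_left
    intro k _
    rw [x_add]
    rfl

/-- additive form -/
noncomputable def Pc (c : Fin 8 → F) : GL chevE6.Idx F := P8 (Multiplicative.ofAdd c)

theorem Pc_add (c d : Fin 8 → F) : Pc (c + d) = Pc c * Pc d := P8.map_mul _ _

theorem Pc_zero : Pc (0 : Fin 8 → F) = 1 := P8.map_one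

theorem Pc_neg (c : Fin 8 → F) : Pc (-c) = (Pc c)⁻¹ := map_inv P8 (Multiplicative.ofAdd c)

theorem Pc_def (c : Fin 8 → F) : Pc c = ((List.finRange 8).map fun k => x (top k) (c k)).prod := rfl

theorem Pc_single (k : Fin 8) (t : F) : Pc (Pi.single k t) = x (top k) t := by
  rw [Pc_def]
  have h : ∀ l : List (Fin 8), l.Nodup → (l.map fun i => x (top i) ((Pi.single k t : Fin 8 → F) i)).prod =
      if k ∈ l then x (top k) t else 1 := by
    intro l
    induction l with
    | nil => intro _; simp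
    | cons i l ih =>
      intro hl
      rw [List.nodup_cons] at hl
      rw [List.map_cons, List.prod_cons, ih hl.2]
      by_cases h1 : i = k
      · subst h1
        rw [Pi.single_eq_same, if_neg hl.1, if_pos List.mem_cons_self, mul_one]
      · rw [Pi.single_eq_of_ne h1, x_zero, one_mul]
        by_cases h2 : k ∈ l
        · rw [if_pos h2, if_pos (List.mem_cons_of_mem _ h2)]
        · rw [if_neg h2, if_neg]
          rw [List.mem_cons, not_or]
          exact ⟨fun h => h1 h.symm, h2⟩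
  rw [h _ (List.nodup_finRange 8), if_pos (List.mem_finRange k)]

/-- homomorphisms agreeing on the unit vectors agree -/
theorem hext {M : Type*} [Monoid M] {f g : Multiplicative (Fin 8 → F) →* M}
    (h : ∀ k t, f (Multiplicative.ofAdd (Pi.single k t)) = g (Multiplicative.ofAdd (Pi.single k t))) (c : Fin 8 → F) :
    f (Multiplicative.ofAdd c) = g (Multiplicative.ofAdd c) := by
  have h1 : Multiplicative.ofAdd c ∈ MonoidHom.eqLocusM f g := by
    rw [← Finset.univ_sum_single c, ofAdd_sum]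
    exact Submonoid.prod_mem _ fun k _ => h k _
  exact h1

open UnipProd in
theorem Pc_injective : Function.Injective (Pc : (Fin 8 → F) → GL chevE6.Idx F) := by
  have key : ∀ c : Fin 8 → F, Pc c = wordG hE6 ((rootsGE chevE6 60).map fun r =>
      (r, if r = 60 then c 0 else if r = 63 then c 1 else if r = 65 then c 2 else if r = 66 then c 3 else
        if r = 68 then c 4 else if r = 69 then c 5 else if r = 70 then c 6 else if r = 71 then c 7 else 0)) := by
    intro c
    have h1 : rootsGE chevE6 60 = [60, 61, 62, 63, 64, 65, 66, 67, 68, 69, 70, 71] := by decide +kernel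
    rw [h1, Pc_def]
    have h2 : List.finRange 8 = [0, 1, 2, 3, 4, 5, 6, 7] := by decide
    rw [h2]
    simp [wordG, top, Elts.xG_zero]
  intro c d h
  rw [key, key] at h
  have h1 := prod_injective hE6 (k := 60) (by decide +kernel) h
  funext k
  fin_cases k
  · simpa using h1 60 (by norm_num) (by decide +kernel)
  · simpa using h1 63 (by norm_num) (by decide +kernel)
  · simpa using h1 65 (by norm_num) (by decide +kernel)
  · simpa using h1 66 (by norm_num) (by decide +kernel)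
  · simpa using h1 68 (by norm_num) (by decide +kernel)
  · simpa using h1 69 (by norm_num) (by decide +kernel)
  · simpa using h1 70 (by norm_num) (by decide +kernel)
  · simpa using h1 71 (by norm_num) (by decide +kernel)

/-! ### Conjugation by the root elements of level zero -/

/-- the action of `x_r(t)` -/
def Am (e : ℕ × Fin 8 × Fin 8) (t : F) : (Fin 8 → F) →+ (Fin 8 → F) where
  toFun c := c + Pi.single e.2.2 (t * c e.2.1) + Pi.single (Fin.rev e.2.1) (t * c (Fin.rev e.2.2))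
  map_zero' := by simp
  map_add' c d := by
    simp only [Pi.add_apply, mul_add, Pi.single_add]
    abel

theorem Am_apply (e : ℕ × Fin 8 × Fin 8) (t : F) (c : Fin 8 → F) :
    Am e t c = c + Pi.single e.2.2 (t * c e.2.1) + Pi.single (Fin.rev e.2.1) (t * c (Fin.rev e.2.2)) := rfl

/-- the form -/
def Qc (c : Fin 8 → F) : F := c 0 * c 7 + c 1 * c 6 + c 2 * c 5 + c 3 * c 4

theorem Qc_Am (h2 : (2 : F) = 0) {e : ℕ × Fin 8 × Fin 8} (he : e ∈ tab) (t : F) (c : Fin 8 → F) :
    Qc (Am e t c) = Qc c := by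
  have h : Qc (Am e t c) = Qc c + 2 * (t * c e.2.1 * c (Fin.rev e.2.2)) := by
    simp only [tab, List.mem_cons, List.not_mem_nil, or_false] at he
    rcases he with rfl | rfl | rfl | rfl | rfl | rfl | rfl | rfl | rfl | rfl | rfl | rfl | rfl | rfl | rfl | rfl | rfl |
      rfl | rfl | rfl | rfl | rfl | rfl | rfl <;>
    simp only [Qc, Am_apply, Pi.add_apply, Pi.single_apply, Fin.rev, Fin.isValue, Fin.reduceEq, if_true, if_false] <;>
    simp <;> ring
  rw [h, h2, zero_mul, add_zero]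

theorem tab_nil : ∀ e ∈ tab, chevE6.commTerms e.1 (top e.2.2) = [] ∧
    chevE6.commTerms e.1 (top (Fin.rev e.2.1)) = [] := by decide +kernel

theorem cast_pm (h2 : (2 : F) = 0) {C : ℤ} (h : C = 1 ∨ C = -1) : (C : F) = 1 := by
  rcases h with rfl | rfl
  · simp
  · rw [Int.cast_neg, Int.cast_one]
    linear_combination -h2

theorem conj_x (h2 : (2 : F) = 0) {e : ℕ × Fin 8 × Fin 8} (he : e ∈ tab) (t : F) (c : Fin 8 → F) :
    x e.1 t * Pc c * (x e.1 t)⁻¹ = Pc (Am e t c) := by
  obtain ⟨h72, hji, hij, hne⟩ := tab_ne e he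
  have hneg1 : ∀ y : F, -y = y := fun y => by linear_combination -y * h2
  refine hext (f := (MulAut.conj (x e.1 t)).toMonoidHom.comp P8) (g := P8.comp (AddMonoidHom.toMultiplicative (Am e t)))
    (fun k w => ?_) c
  show x e.1 t * Pc (Pi.single k w) * (x e.1 t)⁻¹ = Pc (Am e t (Pi.single k w))
  rw [Am_apply, Pc_add, Pc_add, Pc_single, Pc_single, Pc_single]
  -- the relation
  have hrel := Cfsg.Agent.S1025.result (F := F) chevE6 hE6 e.1 (top k) h72 (top_lt k) (hne k).1 (hne k).2 t w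
  have hk := chk_all e he k
  unfold chk at hk
  split at hk
  · rename_i h
    have h1 := comm_of_commTerms (K := F) h72 (top_lt k) (hne k).1 (hne k).2 h t w
    rw [← h1, mul_inv_cancel_right]
    simp only [bne_iff_ne, ne_eq, Bool.and_eq_true] at hk
    rw [Pi.single_eq_of_ne (fun h => hk.1 h.symm), Pi.single_eq_of_ne (fun h => hk.2 h.symm), mul_zero, TwE6Basic.x_zero,
      TwE6Basic.x_zero, mul_one, mul_one]
  · rename_i u C a b h
    simp only [Bool.and_eq_true, Bool.or_eq_true, beq_iff_eq] at hk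
    obtain ⟨⟨⟨hC, rfl⟩, rfl⟩, hu⟩ := hk
    have hword : chevE6.commWord F e.1 (top k) t w = [(u, (C : F) * (-t) ^ 1 * w ^ 1)] := by
      show (chevE6.commTerms e.1 (top k)).map _ = _
      rw [h]
      rfl
    have h3 : x (top k) w * x e.1 t = x e.1 t * x (top k) w * x u (t * w) := by
      apply Units.ext
      have e1 : (C : F) * (-t) ^ 1 * w ^ 1 = t * w := by
        rw [cast_pm h2 hC, hneg1]
        ring
      rw [hword, e1] at hrel
      refine hrel.trans ?_
      show _ * (chevE6.x F u (t * w) * 1) = _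
      rw [mul_one]
      rfl
    have hcu : ∃ i, u = top i ∧ chevE6.commTerms e.1 (top i) = [] := by
      rcases hu with ⟨-, hu⟩ | ⟨-, hu⟩
      · exact ⟨_, hu, (tab_nil e he).1⟩
      · exact ⟨_, hu, (tab_nil e he).2⟩
    obtain ⟨i, hui, hnil⟩ := hcu
    have h4 : x u (t * w) * x e.1 t = x e.1 t * x u (t * w) := by
      rw [hui]
      exact comm_of_commTerms h72 (top_lt i) (hne i).1 (hne i).2 hnil t (t * w)
    have h5 : x e.1 t * x (top k) w * (x e.1 t)⁻¹ = x (top k) w * x u (t * w) := by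
      have h6 : x e.1 t * x (top k) w = x (top k) w * x u (t * w) * x e.1 t := by
        rw [mul_assoc, h4, ← mul_assoc, h3, mul_assoc, TwE6Basic.x_add]
        have : t * w + t * w = 0 := by linear_combination (t * w) * h2
        rw [this, TwE6Basic.x_zero, mul_one]
      rw [h6, mul_inv_cancel_right]
    rw [h5, mul_assoc]
    congr 1
    rcases hu with ⟨hk1, hu⟩ | ⟨hk1, hu⟩
    · rw [hk1, Pi.single_eq_same, Pi.single_eq_of_ne (fun h => hji h.symm), mul_zero, TwE6Basic.x_zero, mul_one, hu]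
    · rw [hk1, Pi.single_eq_same, Pi.single_eq_of_ne hji, mul_zero, TwE6Basic.x_zero, one_mul, hu]
  · exact absurd hk (by simp)

/-! ### The Frobenius and the torus -/

/-- the exchange of the two short coordinates -/
def τ : Fin 8 → Fin 8 := ![0, 1, 2, 4, 3, 5, 6, 7]

theorem τ_τ : ∀ k, τ (τ k) = k := by decide

/-- the semilinear map -/
def sm (φ : F →+* F) : (Fin 8 → F) →+ (Fin 8 → F) where
  toFun c := fun k => φ (c (τ k))
  map_zero' := by funext k; simp
  map_add' c d := by funext k; simp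

theorem sm_apply (φ : F →+* F) (c : Fin 8 → F) (k : Fin 8) : sm φ c k = φ (c (τ k)) := rfl

theorem sg_Pc (h2 : (2 : F) = 0) (φ : F →+* F) (c : Fin 8 → F) : sg φ (Pc c) = Pc (sm φ c) := by
  refine hext (f := (sg φ).comp P8) (g := P8.comp (AddMonoidHom.toMultiplicative (sm φ))) (fun k t => ?_) c
  show sg φ (Pc (Pi.single k t)) = Pc (sm φ (Pi.single k t))
  have h1 : sm φ (Pi.single k t) = Pi.single (τ k) (φ t) := by
    funext l
    rw [sm_apply]
    by_cases h : τ l = k
    · subst h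
      rw [Pi.single_eq_same, τ_τ, Pi.single_eq_same]
    · rw [Pi.single_eq_of_ne h, Pi.single_eq_of_ne (fun h' => h (by rw [h', τ_τ])), map_zero]
  rw [h1, Pc_single, Pc_single]
  obtain ⟨h72, hr⟩ := rho_top k
  have h3 : sg φ (x (top k) t) = x (top (τ k)) (((GraphSymm.symmE6.ε ⟨top k, h72⟩ : ℤ) : F) * φ t) := by
    rw [show top (τ k) = (rho ⟨top k, h72⟩).val from hr.symm]
    exact sg_x φ ⟨top k, h72⟩ t
  have h4 : ((GraphSymm.symmE6.ε ⟨top k, h72⟩ : ℤ) : F) = 1 := by
    apply cast_pm h2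
    exact Int.isUnit_iff.1 (IsUnit.of_mul_eq_one _ (GraphSymm.symmE6.ε_sq ⟨top k, h72⟩))
  rw [h3, h4, one_mul]

theorem diag_x {g : GL chevE6.Idx F} (hg : g ∈ chevE6.diagonalSubgroup F) {r : ℕ} (hr : r < chevE6.nroots) :
    ∃ y : F, y ≠ 0 ∧ ∀ t, g * x r t * g⁻¹ = x r (y * t) :=
  BNChev.diagonal_conj hE6 hg hr

theorem top_lt' : ∀ k, top k < chevE6.nroots := top_lt

/-- a diagonal map -/
def dm (χ : Fin 8 → F) : (Fin 8 → F) →+ (Fin 8 → F) where
  toFun c := fun k => χ k * c k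
  map_zero' := by funext k; simp
  map_add' c d := by funext k; simp [mul_add]

theorem dm_apply (χ c : Fin 8 → F) (k : Fin 8) : dm χ c k = χ k * c k := rfl

theorem dm_single (χ : Fin 8 → F) (k : Fin 8) (t : F) : dm χ (Pi.single k t) = Pi.single k (χ k * t) := by
  funext l
  rw [dm_apply]
  by_cases h : l = k
  · subst h; rw [Pi.single_eq_same, Pi.single_eq_same]
  · rw [Pi.single_eq_of_ne h, Pi.single_eq_of_ne h, mul_zero]

theorem conj_of {g : GL chevE6.Idx F} (A : (Fin 8 → F) →+ (Fin 8 → F))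
    (h : ∀ k t, g * x (top k) t * g⁻¹ = Pc (A (Pi.single k t))) (c : Fin 8 → F) : g * Pc c * g⁻¹ = Pc (A c) := by
  refine hext (f := (MulAut.conj g).toMonoidHom.comp P8) (g := P8.comp (AddMonoidHom.toMultiplicative A))
    (fun k t => ?_) c
  show g * Pc (Pi.single k t) * g⁻¹ = Pc (A (Pi.single k t))
  rw [Pc_single]
  exact h k t

theorem conj_diag {g : GL chevE6.Idx F} (hg : g ∈ chevE6.diagonalSubgroup F) :
    ∃ χ : Fin 8 → F, (∀ k, χ k ≠ 0) ∧ ∀ c : Fin 8 → F, g * Pc c * g⁻¹ = Pc (dm χ c) := by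
  have h1 : ∀ k : Fin 8, ∃ y : F, y ≠ 0 ∧ ∀ t, g * x (top k) t * g⁻¹ = x (top k) (y * t) := fun k =>
    diag_x hg (top_lt' k)
  choose χ h2 h3 using h1
  refine ⟨χ, h2, conj_of (dm χ) fun k t => ?_⟩
  rw [h3, dm_single, Pc_single]

end

/-! ### The space over `𝔽₂` -/

open Cfsg.Agent.H181.O8m (V q)

section

variable {F : Type u} [Field F] [CharP F 2]

/-- the embedding of the prime field -/
def io : ZMod 2 →+* F := ZMod.castHom (dvd_refl 2) F

theorem io_inj : Function.Injective (io : ZMod 2 →+* F) := (io : ZMod 2 →+* F).injective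

/-- the coordinates -/
def Ph (w : F) : V →+ (Fin 8 → F) where
  toFun v := ![io (v (.inl (.inl 0))), io (v (.inl (.inl 1))), io (v (.inl (.inl 2))),
    io (v (.inr 0)) + io (v (.inr 1)) * w, io (v (.inr 0)) + io (v (.inr 1)) * w ^ 2,
    io (v (.inl (.inr 2))), io (v (.inl (.inr 1))), io (v (.inl (.inr 0)))]
  map_zero' := by
    funext k
    fin_cases k <;> simp
  map_add' v v' := by
    funext k
    fin_cases k <;> simp <;> ring

theorem Ph_apply (w : F) (v : V) : Ph w v = ![io (v (.inl (.inl 0))), io (v (.inl (.inl 1))), io (v (.inl (.inl 2))),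
    io (v (.inr 0)) + io (v (.inr 1)) * w, io (v (.inr 0)) + io (v (.inr 1)) * w ^ 2,
    io (v (.inl (.inr 2))), io (v (.inl (.inr 1))), io (v (.inl (.inr 0)))] := rfl

theorem two_zero : (2 : F) = 0 := by exact_mod_cast CharP.cast_eq_zero F 2

variable {w : F} (hw : w ^ 2 + w + 1 = 0)

include hw

theorem Qc_Ph (v : V) : Qc (Ph w v) = io (q v) := by
  have h2 := two_zero (F := F)
  rw [Cfsg.Agent.H181.O8m.q_apply, Fin.sum_univ_three]
  simp only [Qc, Ph_apply, map_add, map_mul, map_pow]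
  show _ * _ + _ * _ + _ * _ + (io (v (.inr 0)) + io (v (.inr 1)) * w) * (io (v (.inr 0)) + io (v (.inr 1)) * w ^ 2) = _
  have h1 : w ^ 3 = 1 := by linear_combination (w - 1) * hw
  have h3 : (io (v (.inr 0)) + io (v (.inr 1)) * w) * (io (v (.inr 0)) + io (v (.inr 1)) * w ^ 2) =
      io (v (.inr 0)) ^ 2 + io (v (.inr 0)) * io (v (.inr 1)) + io (v (.inr 1)) ^ 2 := by
    linear_combination io (v (.inr 0)) * io (v (.inr 1)) * hw + io (v (.inr 1)) ^ 2 * h1 -
      io (v (.inr 0)) * io (v (.inr 1)) * h2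
  rw [h3]
  rfl

theorem w_ne (y : ZMod 2) : w ≠ io y := by
  rintro rfl
  have h1 : (io (y ^ 2 + y + 1) : F) = 0 := by
    rw [map_add, map_add, map_pow, map_one]
    exact hw
  have h2 : ∀ y : ZMod 2, y ^ 2 + y + 1 = 1 := by decide
  rw [h2, map_one] at h1
  exact one_ne_zero h1

theorem pair_inj {a b a' b' : ZMod 2} (h : (io a + io b * w : F) = io a' + io b' * w) : a = a' ∧ b = b' := by
  have h1 : (io (a - a') : F) = io (b' - b) * w := by
    rw [map_sub, map_sub]
    linear_combination h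
  have hz : ∀ y : ZMod 2, y = 0 ∨ y = 1 := by decide
  rcases hz (b' - b) with h2 | h2
  · rw [h2, map_zero, zero_mul] at h1
    have h3 : a - a' = 0 := io_inj (by rw [h1, map_zero])
    exact ⟨sub_eq_zero.1 h3, (sub_eq_zero.1 h2).symm⟩
  · rw [h2, map_one, one_mul] at h1
    exact absurd h1.symm (w_ne hw _)

theorem Ph_injective : Function.Injective (Ph w : V → Fin 8 → F) := by
  intro v v' h
  rw [Ph_apply, Ph_apply] at h
  have h0 := congrFun h 0
  have h1 := congrFun h 1
  have h2 := congrFun h 2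
  have h3 := congrFun h 3
  have h5 := congrFun h 5
  have h6 := congrFun h 6
  have h7 := congrFun h 7
  have h8 := pair_inj hw (show (io (v (.inr 0)) + io (v (.inr 1)) * w : F) = io (v' (.inr 0)) + io (v' (.inr 1)) * w from h3)
  funext k
  rcases k with (k | k) | k
  · fin_cases k
    · exact io_inj h0
    · exact io_inj h1
    · exact io_inj h2
  · fin_cases k
    · exact io_inj h7
    · exact io_inj h6
    · exact io_inj h5
  · fin_cases k
    · exact h8.1
    · exact h8.2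

omit hw in
theorem io_fix (φ : F →+* F) (a : ZMod 2) : φ (io a) = io a := by
  have h : φ.comp (io : ZMod 2 →+* F) = io := RingHom.ext_zmod _ _
  exact congrArg (fun f : ZMod 2 →+* F => f a) h

omit [CharP F 2] in
theorem w_cube : w ^ 3 = 1 := by linear_combination (w - 1) * hw

theorem sm_Ph {φ : F →+* F} (hφ : ∀ t, φ t = t ^ 2) (v : V) : sm φ (Ph w v) = Ph w v := by
  have h3 := w_cube hw
  funext k
  rw [sm_apply, Ph_apply]
  fin_cases k
  · exact io_fix φ _
  · exact io_fix φ _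
  · exact io_fix φ _
  · show φ (io (v (.inr 0)) + io (v (.inr 1)) * w ^ 2) = io (v (.inr 0)) + io (v (.inr 1)) * w
    rw [map_add, map_mul, map_pow, io_fix, io_fix, hφ]
    linear_combination (io (v (.inr 1)) * w) * h3
  · show φ (io (v (.inr 0)) + io (v (.inr 1)) * w) = io (v (.inr 0)) + io (v (.inr 1)) * w ^ 2
    rw [map_add, map_mul, io_fix, io_fix, hφ]
  · exact io_fix φ _
  · exact io_fix φ _
  · exact io_fix φ _

omit hw in
theorem fix_io {t : F} (h : t ^ 2 = t) : ∃ a : ZMod 2, io a = t := by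
  have h1 : t * (t - 1) = 0 := by linear_combination h
  rcases mul_eq_zero.1 h1 with h2 | h2
  · exact ⟨0, by rw [map_zero, h2]⟩
  · exact ⟨1, by rw [map_one]; linear_combination -h2⟩

theorem exists_pair (h4 : ∀ t : F, t ^ 4 = t) (t : F) : ∃ a b : ZMod 2, t = io a + io b * w := by
  have h2 := two_zero (F := F)
  have h1 : (t * (t - 1)) * ((t - w) * (t - (w + 1))) = 0 := by
    linear_combination h4 t + (t ^ 2 - t) * hw + (- t ^ 3 * w + t ^ 2 * w - t ^ 3 + t ^ 2 + t - t ^ 2) * h2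
  rcases mul_eq_zero.1 h1 with h | h
  · rcases mul_eq_zero.1 h with h | h
    · exact ⟨0, 0, by rw [map_zero, zero_mul, add_zero, h]⟩
    · exact ⟨1, 0, by rw [map_one, map_zero, zero_mul, add_zero]; linear_combination h⟩
  · rcases mul_eq_zero.1 h with h | h
    · exact ⟨0, 1, by rw [map_one, map_zero, one_mul, zero_add]; linear_combination h⟩
    · exact ⟨1, 1, by rw [map_one, one_mul]; linear_combination h⟩

theorem exists_of_fix (h4 : ∀ t : F, t ^ 4 = t) {φ : F →+* F} (hφ : ∀ t, φ t = t ^ 2) {c : Fin 8 → F}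
    (hc : sm φ c = c) : ∃ v : V, Ph w v = c := by
  have h3 := w_cube hw
  have e : ∀ k, (c (τ k)) ^ 2 = c k := fun k => by rw [← hφ]; exact congrFun hc k
  obtain ⟨a0, e0⟩ := fix_io (e 0)
  obtain ⟨a1, e1⟩ := fix_io (e 1)
  obtain ⟨a2, e2⟩ := fix_io (e 2)
  obtain ⟨a5, e5⟩ := fix_io (e 5)
  obtain ⟨a6, e6⟩ := fix_io (e 6)
  obtain ⟨a7, e7⟩ := fix_io (e 7)
  obtain ⟨y, z, e3⟩ := exists_pair hw h4 (c 3)
  have e4 : c 4 = io y + io z * w ^ 2 := by
    have h5 : φ (c 3) = c 4 := by rw [hφ]; exact e 4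
    rw [← h5, e3, map_add, map_mul, io_fix, io_fix, hφ]
  refine ⟨Sum.elim (Sum.elim ![a0, a1, a2] ![a7, a6, a5]) ![y, z], ?_⟩
  rw [Ph_apply]
  funext k
  fin_cases k
  · exact e0
  · exact e1
  · exact e2
  · exact e3.symm
  · exact e4.symm
  · exact e5
  · exact e6
  · exact e7

end

/-! ### Stabilisers of families -/

/-- the elements which permute a family, preserving a function -/
def St {ι β G : Type*} [Group G] (P : ι → G) (f : ι → β) : Subgroup G where
  carrier := {g | (∀ i, ∃ j, f j = f i ∧ g * P i * g⁻¹ = P j) ∧ ∀ i, ∃ j, f j = f i ∧ g⁻¹ * P i * g = P j}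
  mul_mem' := by
    rintro a b ⟨ha, ha'⟩ ⟨hb, hb'⟩
    refine ⟨fun i => ?_, fun i => ?_⟩
    · obtain ⟨j, h1, h2⟩ := hb i
      obtain ⟨k, h3, h4⟩ := ha j
      exact ⟨k, h3.trans h1, by rw [← h4, ← h2]; group⟩
    · obtain ⟨j, h1, h2⟩ := ha' i
      obtain ⟨k, h3, h4⟩ := hb' j
      exact ⟨k, h3.trans h1, by rw [← h4, ← h2]; group⟩
  one_mem' := ⟨fun i => ⟨i, rfl, by group⟩, fun i => ⟨i, rfl, by group⟩⟩
  inv_mem' := by
    rintro a ⟨ha, ha'⟩
    exact ⟨fun i => by rw [inv_inv]; exact ha' i, fun i => by rw [inv_inv]; exact ha i⟩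

theorem le_St {ι β G : Type*} [Group G] {P : ι → G} {f : ι → β} {H : Subgroup G}
    (h : ∀ g ∈ H, ∀ i, ∃ j, f j = f i ∧ g * P i * g⁻¹ = P j) : H ≤ St P f := fun g hg =>
  ⟨h g hg, fun i => by
    have h1 := h g⁻¹ (inv_mem hg) i
    rwa [inv_inv] at h1⟩

section

variable {F : Type u} [Field F] [CharP F 2] {w : F} (hw : w ^ 2 + w + 1 = 0) (h4 : ∀ t : F, t ^ 4 = t)
  {φ : F →+* F} (hφ : ∀ t, φ t = t ^ 2)

/-- the elements which act on the layer as isometries -/
noncomputable def Hs (w : F) : Subgroup (GL chevE6.Idx F) := St (fun v : V => Pc (Ph w v)) q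

omit h4 in
theorem x_mem_St {r : ℕ} (hr : r ∈ tab.map Prod.fst) (t : F) : x r t ∈ St (Pc (F := F)) Qc := by
  obtain ⟨e, he, rfl⟩ := List.mem_map.1 hr
  refine ⟨fun c => ⟨_, Qc_Am two_zero he t c, conj_x two_zero he t c⟩, fun c => ⟨_, Qc_Am two_zero he (-t) c, ?_⟩⟩
  rw [← conj_x two_zero he (-t) c, ← TwE6Basic.x_inv, inv_inv]

include hw h4 hφ

/-- the image is determined by the fixed point condition -/
theorem exists_of_sg {g : GL chevE6.Idx F} (hg : g ∈ fix φ) {v : V} {d : Fin 8 → F}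
    (h : g * Pc (Ph w v) * g⁻¹ = Pc d) : ∃ v', Ph w v' = d := by
  apply exists_of_fix hw h4 hφ
  apply Pc_injective
  rw [← sg_Pc two_zero, ← h, map_mul, map_mul, map_inv, sg_Pc two_zero, sm_Ph hw hφ, mem_fix.1 hg]

theorem le_Hs_of_rspan {H : Subgroup (GL chevE6.Idx F)} (h1 : H ≤ St (Pc (F := F)) Qc) (h2 : H ≤ fix φ) : H ≤ Hs w := by
  refine le_St fun g hg v => ?_
  obtain ⟨d, hd, he⟩ := (h1 hg).1 (Ph w v)
  obtain ⟨v', rfl⟩ := exists_of_sg hw h4 hφ (h2 hg) he
  refine ⟨v', ?_, he⟩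
  rw [Qc_Ph hw, Qc_Ph hw] at hd
  exact io_inj hd

theorem diag_le_Hs {H : Subgroup (GL chevE6.Idx F)} (h1 : H ≤ chevE6.diagonalSubgroup F) (h2 : H ≤ fix φ) :
    H ≤ Hs w := by
  refine le_St fun g hg v => ?_
  obtain ⟨χ, hχ, he⟩ := conj_diag (h1 hg)
  obtain ⟨v', hv'⟩ := exists_of_sg hw h4 hφ (h2 hg) (he (Ph w v))
  refine ⟨v', ?_, by rw [hv']; exact he _⟩
  apply io_inj (F := F)
  rw [← Qc_Ph hw, ← Qc_Ph hw]
  have e1 : ∀ k, (Ph w v (τ k)) ^ 2 = Ph w v k := fun k => by
    rw [← hφ]; exact congrFun (sm_Ph hw hφ v) k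
  have e2 : ∀ k, (Ph w v' (τ k)) ^ 2 = Ph w v' k := fun k => by
    rw [← hφ]; exact congrFun (sm_Ph hw hφ v') k
  have e3 : ∀ k, Ph w v' k = χ k * Ph w v k := fun k => congrFun hv' k
  have key : ∀ k, τ k = k → Ph w v' k = Ph w v k := by
    intro k hk
    have e4 := e1 k
    have e5 := e2 k
    rw [hk] at e4 e5
    have e6 : Ph w v k * (Ph w v k - 1) = 0 := by linear_combination e4
    have e7 : Ph w v' k * (Ph w v' k - 1) = 0 := by linear_combination e5
    rcases mul_eq_zero.1 e6 with h | h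
    · rw [e3, h, mul_zero]
    · have h' : Ph w v k = 1 := sub_eq_zero.1 h
      rcases mul_eq_zero.1 e7 with h3 | h3
      · rw [e3, h', mul_one] at h3
        exact absurd h3 (hχ k)
      · rw [h', sub_eq_zero.1 h3]
  have cube : ∀ t : F, t = 0 ∨ t ^ 3 = 1 := fun t => by
    have : t * (t ^ 3 - 1) = 0 := by linear_combination h4 t
    rcases mul_eq_zero.1 this with h | h
    · exact Or.inl h
    · exact Or.inr (sub_eq_zero.1 h)
  have e8 : Ph w v' 3 * Ph w v' 4 = Ph w v 3 * Ph w v 4 := by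
    have a1 : Ph w v 4 = (Ph w v 3) ^ 2 := (e1 4).symm
    have a2 : Ph w v' 4 = (Ph w v' 3) ^ 2 := (e2 4).symm
    rw [a1, a2]
    rcases cube (Ph w v 3) with h | h
    · rw [e3 3, h]; ring
    · rcases cube (Ph w v' 3) with h' | h'
      · rw [e3 3] at h'
        rcases mul_eq_zero.1 h' with h5 | h5
        · exact absurd h5 (hχ 3)
        · rw [h5] at h
          exact absurd h (by norm_num)
      · linear_combination h' - h
  unfold Qc
  rw [key 0 (by decide), key 1 (by decide), key 2 (by decide), key 5 (by decide), key 6 (by decide), key 7 (by decide), e8]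

end

/-! ### The layer as a subgroup of `²E₆(2)` -/

section

open CoxeterSystem Cfsg.Agent.ChevalleyStructure.CoxeterGeom Cfsg.Agent.Tits.Roots Cfsg.Agent.Tits.Core
  Cfsg.Agent.Nodes Cfsg.Agent.Nodes.Reps Cfsg.Agent.Nodes.BNOf Cfsg.Agent.Nodes.RGDLib Cfsg.Agent.Nodes.Bruhat
  Cfsg.Agent.Nodes.OppDec Cfsg.Agent.Nodes.LeviDec Cfsg.Agent.Nodes.StabComb
open Cfsg.Agent.ChevalleyStructure.TwistedU (rspan mem_rspan rspan_le)
open Cfsg.Agent.H231.QF Cfsg.Agent.H590.F4
open Cfsg.Agent.Nodes.RGDFold (R)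

variable {F : Type u} [Field F] [Fintype F] [CharP F 2] {w : F} (hw : w ^ 2 + w + 1 = 0) (h4 : ∀ t : F, t ^ 4 = t)
  {φ : F →+* F} (hφ : ∀ t, φ t = t ^ 2)

/-- the root groups in the general linear group -/
noncomputable abbrev RR (φ : F →+* F) (z : Fin 4 → ℤ) : Subgroup (GL chevE6.Idx F) :=
  R chevE6 Nodes.RGDTwE6.hp F Nodes.RGDTwE6.J (sg φ) z

omit [Fintype F] [CharP F 2] in
theorem RR_le_fix (φ : F →+* F) (z : Fin 4 → ℤ) : RR φ z ≤ fix φ := inf_le_right

omit [Fintype F] [CharP F 2] in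
theorem mem_RR {φ : F →+* F} {z : Fin 4 → ℤ} {g : GL chevE6.Idx F} (h1 : g ∈ fix φ)
    (h2 : g ∈ rspan (x (K := F)) {k | k < 72 ∧ Nodes.RGDFold.V chevE6 Nodes.RGDTwE6.J k = z}) : g ∈ RR φ z := ⟨h2, h1⟩

omit [Fintype F] [CharP F 2] in
theorem x_mem_rs2 {z : Fin 4 → ℤ} {k : ℕ} (hk : k < 72) (hz : Nodes.RGDFold.V chevE6 Nodes.RGDTwE6.J k = z) (t : F) :
    x k t ∈ rspan (x (K := F)) {k | k < 72 ∧ Nodes.RGDFold.V chevE6 Nodes.RGDTwE6.J k = z} :=
  Subgroup.subset_closure ⟨k, ⟨hk, hz⟩, t, rfl⟩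

omit [Fintype F] [CharP F 2] in
theorem RR_le {φ : F →+* F} {z : Fin 4 → ℤ} {H : Subgroup (GL chevE6.Idx F)}
    (h : ∀ k < 72, Nodes.RGDFold.V chevE6 Nodes.RGDTwE6.J k = z → ∀ t, x k t ∈ H) : RR φ z ≤ H :=
  inf_le_left.trans (rspan_le _ fun k hk t => h k hk.1 hk.2 t)

include hw h4 hφ in
omit [Fintype F] in
theorem RR_le_Hs {z : Fin 4 → ℤ} (hz : z 3 = 0) : RR φ z ≤ Hs w :=
  le_Hs_of_rspan hw h4 hφ (RR_le fun k hk hkz t => x_mem_St (lev_zero k hk (by rw [hkz]; exact hz)) t) (RR_le_fix φ z)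

include h4 in
omit [CharP F 2] [Fintype F] in
theorem hqq (t : F) : (t ^ 2) ^ 2 = t := by rw [← pow_mul]; exact h4 t

include h4 hφ in
omit [CharP F 2] in
theorem RR_le_G {p : ℕ} [Fact p.Prime] [CharP F p] {z : Fin 4 → ℤ} (hz : IsRoot cs Nodes.RGDTwE6.isCartan z) :
    RR φ z ≤ twistedE6 F 2 :=
  Nodes.RGDFold.R_le cs Nodes.RGDTwE6.isCartan Nodes.RGDTwE6.foldData (Nodes.RGDTwE6.foldGrp hφ (hqq h4)) p hz

omit [Fintype F] in
include hw hφ in
theorem Pc_mem_fix (v : V) : Pc (Ph w v) ∈ fix φ := by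
  rw [mem_fix, sg_Pc two_zero, sm_Ph hw hφ]

omit [Fintype F] [CharP F 2] in
theorem Pc_fix {c : Fin 8 → F} (hc : sm φ c = c) (h2 : (2 : F) = 0) : Pc c ∈ fix φ := by
  rw [mem_fix, sg_Pc h2, hc]

theorem V_top : ∀ k : Fin 8, Nodes.RGDFold.V chevE6 Nodes.RGDTwE6.J (top (τ k)) = Nodes.RGDFold.V chevE6 Nodes.RGDTwE6.J (top k) ∧
    Nodes.RGDFold.V chevE6 Nodes.RGDTwE6.J (top k) 3 = 2 := by decide +kernel

omit [Fintype F] in
/-- the layer is generated by its root groups -/
theorem Pc_mem_of {c : Fin 8 → F} (hc : sm φ c = c) {H : Subgroup (GL chevE6.Idx F)}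
    (h : ∀ k, RR φ (Nodes.RGDFold.V chevE6 Nodes.RGDTwE6.J (top k)) ≤ H) : Pc c ∈ H := by
  have h2 := two_zero (F := F)
  -- the long coordinates
  have hlong : ∀ k, τ k = k → Pc (Pi.single k (c k)) ∈ H := by
    intro k hk
    apply h k
    refine mem_RR (Pc_fix ?_ h2) ?_
    · funext l
      rw [sm_apply]
      by_cases hl : l = k
      · subst hl
        rw [hk, Pi.single_eq_same]
        have := congrFun hc l
        rw [sm_apply, hk] at this
        exact this
      · have hl' : τ l ≠ k := fun h' => hl (by rw [← hk, ← h', τ_τ])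
        rw [Pi.single_eq_of_ne hl, Pi.single_eq_of_ne hl', map_zero]
    · rw [Pc_single]
      exact x_mem_rs2 (top_lt k) rfl _
  have hshort : Pc (Pi.single 3 (c 3) + Pi.single 4 (c 4)) ∈ H := by
    apply h 3
    refine mem_RR (Pc_fix ?_ h2) ?_
    · have e3 : φ (c 4) = c 3 := congrFun hc 3
      have e4 : φ (c 3) = c 4 := congrFun hc 4
      funext l
      rw [sm_apply]
      fin_cases l <;> simp [τ, e3, e4]
    · rw [Pc_add, Pc_single, Pc_single]
      exact mul_mem (x_mem_rs2 (top_lt 3) rfl _) (x_mem_rs2 (top_lt 4) (V_top 3).1 _)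
  have e : c = Pi.single 0 (c 0) + Pi.single 1 (c 1) + Pi.single 2 (c 2) + (Pi.single 3 (c 3) + Pi.single 4 (c 4)) +
      Pi.single 5 (c 5) + Pi.single 6 (c 6) + Pi.single 7 (c 7) := by
    funext l
    fin_cases l <;> simp
  rw [e]
  simp only [Pc_add] at hshort ⊢
  exact mul_mem (mul_mem (mul_mem (mul_mem (mul_mem (mul_mem (hlong 0 (by decide)) (hlong 1 (by decide)))
    (hlong 2 (by decide))) hshort) (hlong 5 (by decide))) (hlong 6 (by decide))) (hlong 7 (by decide))

omit [CharP F 2] in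
theorem isRoot_top (k : Fin 8) : IsRoot cs Nodes.RGDTwE6.isCartan (Nodes.RGDFold.V chevE6 Nodes.RGDTwE6.J (top k)) :=
  Nodes.RGDTwComE6.isRoot_V (top_lt' k)

include hw h4 hφ in
theorem Pc_mem_G (v : V) : Pc (Ph w v) ∈ twistedE6 F 2 := by
  have : Fact (Nat.Prime 2) := ⟨Nat.prime_two⟩
  exact Pc_mem_of (sm_Ph hw hφ v) fun k => RR_le_G h4 hφ (p := 2) (Nodes.RGDTwComE6.isRoot_V (top_lt' k))

/-- the embedding of the orthogonal space -/
noncomputable def pp (hw : w ^ 2 + w + 1 = 0) (h4 : ∀ t : F, t ^ 4 = t) (hφ : ∀ t, φ t = t ^ 2) :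
    Multiplicative V →* KK F :=
  (P8.comp (AddMonoidHom.toMultiplicative (Ph w))).codRestrict (twistedE6 F 2) fun v => Pc_mem_G hw h4 hφ v.toAdd

theorem coe_pp (v : V) : ((pp hw h4 hφ (.ofAdd v) : KK F) : GL chevE6.Idx F) = Pc (Ph w v) := rfl

theorem pp_injective : Function.Injective (pp hw h4 hφ) := by
  intro a b h
  have h1 : Pc (Ph w a.toAdd) = Pc (Ph w b.toAdd) := congrArg (fun g : KK F => (g : GL chevE6.Idx F)) h
  exact Ph_injective hw (Pc_injective h1)

theorem range_pp : (pp hw h4 hφ).range = V2 φ := by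
  have : Fact (Nat.Prime 2) := ⟨Nat.prime_two⟩
  apply le_antisymm
  · rintro _ ⟨a, rfl⟩
    have h1 : Pc (Ph w a.toAdd) ∈ (V2 φ).map (twistedE6 F 2).subtype := by
      refine Pc_mem_of (sm_Ph hw hφ _) fun k => ?_
      have hr : IsRoot cs Nodes.RGDTwE6.isCartan (Nodes.RGDFold.V chevE6 Nodes.RGDTwE6.J (top k)) :=
        Nodes.RGDTwComE6.isRoot_V (top_lt' k)
      intro g hg
      have hG : g ∈ twistedE6 F 2 := RR_le_G h4 hφ (p := 2) hr hg
      refine ⟨⟨g, hG⟩, ?_, rfl⟩
      have h2 : X φ (Nodes.RGDFold.V chevE6 Nodes.RGDTwE6.J (top k)) ≤ V2 φ :=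
        RGD.le_Sup ⟨(KFacts.TwESix.Comb.mem_rts cs).1 hr, (V_top k).2⟩
      exact h2 hg
    obtain ⟨y, hy, e⟩ := h1
    have h2 : y = pp hw h4 hφ a := Subtype.ext e
    rwa [← h2]
  · refine RGD.Sup_le fun z hz g hg => ?_
    have hg' : (g : GL chevE6.Idx F) ∈ RR φ z := hg
    have h1 : RR φ z ≤ (P8 (F := F)).range := RR_le fun k hk hkz t => by
      obtain ⟨i, rfl⟩ := lev_two k hk (by rw [hkz]; exact hz.2)
      exact ⟨_, Pc_single i t⟩
    obtain ⟨c, hc⟩ := h1 hg'
    have h2 : sm φ c.toAdd = c.toAdd := by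
      apply Pc_injective
      rw [← sg_Pc two_zero]
      have h3 : Pc c.toAdd = (g : GL chevE6.Idx F) := hc
      rw [h3]
      exact mem_fix.1 (RR_le_fix φ z hg')
    obtain ⟨v, hv⟩ := exists_of_fix hw h4 hφ h2
    exact ⟨.ofAdd v, Subtype.ext (by rw [coe_pp, hv]; exact hc)⟩

omit [Fintype F] in
include hw h4 hφ in
theorem Lv_le_Hs : Lv φ j4 ≤ (Hs w).subgroupOf (twistedE6 F 2) := by
  refine sup_le ?_ ?_
  · intro g hg
    exact diag_le_Hs hw h4 hφ (H := chevE6.diagonalSubgroup F ⊓ twistedE6 F 2) inf_le_left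
      (inf_le_right.trans (twisted_le_fix φ hφ (hqq h4))) hg
  · refine RGD.Sup_le fun z hz g hg => ?_
    exact RR_le_Hs hw h4 hφ (hz.2 3 (by simp [j4])) hg

theorem act_pp {g : KK F} (hg : g ∈ Lv φ j4) (v : V) :
    ∃ v', q v' = q v ∧ g * pp hw h4 hφ (.ofAdd v) * g⁻¹ = pp hw h4 hφ (.ofAdd v') := by
  obtain ⟨v', h1, h2⟩ := (Lv_le_Hs hw h4 hφ hg).1 v
  exact ⟨v', h1, Subtype.ext h2⟩

end

/-! ### The homomorphism -/

section

open Cfsg.Agent.H181.O8m (O8)

/-- isometries from conjugation -/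
theorem exists_psi {K : Type*} [Group K] {p : Multiplicative V →* K} (hp : Function.Injective p) {L : Subgroup K}
    (h : ∀ g ∈ L, ∀ v : V, ∃ v', q v' = q v ∧ g * p (.ofAdd v) * g⁻¹ = p (.ofAdd v')) :
    ∃ ψ : ↥L →* ↥O8, ∀ (g : ↥L) (v : V), (g : K) * p (.ofAdd v) * (g : K)⁻¹ =
      p (.ofAdd ((ψ g : V ≃ₗ[ZMod 2] V) v)) := by
  choose f hf1 hf2 using fun (g : ↥L) v => h g g.2 v
  have inj : ∀ {a b : V}, p (.ofAdd a) = p (.ofAdd b) → a = b := fun h => hp h
  have hadd : ∀ g a b, f g (a + b) = f g a + f g b := fun g a b => inj (by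
    rw [ofAdd_add, map_mul, ← hf2, ← hf2, ← hf2, ofAdd_add, map_mul]
    group)
  have hmul : ∀ g k v, f (g * k) v = f g (f k v) := fun g k v => inj (by
    rw [← hf2, ← hf2, ← hf2, Subgroup.coe_mul]
    group)
  have hone : ∀ v, f 1 v = v := fun v => inj (by
    rw [← hf2, Subgroup.coe_one]
    group)
  let A : ↥L → V →ₗ[ZMod 2] V := fun g => (AddMonoidHom.mk' (f g) (hadd g)).toZModLinearMap 2
  have hA : ∀ g v, A g v = f g v := fun _ _ => rfl
  let e : ↥L → V ≃ₗ[ZMod 2] V := fun g => LinearEquiv.ofLinearMap (A g) (A g⁻¹)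
    (LinearMap.ext fun v => by rw [LinearMap.comp_apply, hA, hA, ← hmul, mul_inv_cancel, hone]; rfl)
    (LinearMap.ext fun v => by rw [LinearMap.comp_apply, hA, hA, ← hmul, inv_mul_cancel, hone]; rfl)
  have he : ∀ g v, e g v = f g v := fun _ _ => rfl
  refine ⟨MonoidHom.mk' (fun g => ⟨e g, fun v => by rw [he]; exact hf1 g v⟩) fun g k => Subtype.ext ?_, fun g v => ?_⟩
  · apply LinearEquiv.ext
    intro v
    exact hmul g k v
  · rw [hf2]
    rfl

end

/-! ### The field of four elements -/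

section

variable {F : Type u} [Field F] [Fintype F] (hF : Fintype.card F = 4)

include hF

theorem char_two : CharP F 2 := by
  have : Fact (Nat.Prime 2) := ⟨Nat.prime_two⟩
  exact charP_of_card_eq_prime_pow (f := 2) (by rw [hF]; norm_num)

theorem pow_four (t : F) : t ^ 4 = t := by
  have h := FiniteField.pow_card t
  rwa [hF] at h

theorem exists_w : ∃ w : F, w ^ 2 + w + 1 = 0 := by
  classical
  obtain ⟨t, ht⟩ : ∃ t : F, t ∉ ({0, 1} : Finset F) := by
    by_contra h
    push Not at h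
    have h1 : Finset.univ ⊆ ({0, 1} : Finset F) := fun x _ => h x
    have h2 := (Finset.card_le_card h1).trans Finset.card_le_two
    rw [Finset.card_univ, hF] at h2
    omega
  rw [Finset.mem_insert, Finset.mem_singleton, not_or] at ht
  have h1 : (t * (t - 1)) * (t ^ 2 + t + 1) = 0 := by linear_combination pow_four hF t
  rcases mul_eq_zero.1 h1 with h | h
  · rcases mul_eq_zero.1 h with h | h
    · exact absurd h ht.1
    · exact absurd (sub_eq_zero.1 h) ht.2
  · exact ⟨t, h⟩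

end

end Cfsg.Agent.H588.F4
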